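import Mathlib

/-!
# Fourier analysis on a finite abelian group with a free action of a group of automorphisms
-/

set_option autoImplicit false
set_option linter.unusedSectionVars false
set_option linter.unusedSimpArgs false
set_option linter.unusedVariables false
set_option linter.style.haveILetI false
set_option linter.unnecessarySimpa false

open scoped ComplexConjugate

namespace Cfsg.Agent.Lib.Exc3

section Dual

variable {P : Type*} [Group P] [Finite P]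

theorem finite_dual (hab : ∀ a b : P, a * b = b * a) : Finite (P →* ℂˣ) := by
  letI : CommGroup P := { (inferInstance : Group P) with mul_comm := hab }
  haveI : NeZero (Monoid.exponent P) := ⟨Monoid.exponent_ne_zero_of_finite⟩
  obtain ⟨e⟩ := CommGroup.monoidHom_mulEquiv_of_hasEnoughRootsOfUnity P ℂ
  exact Finite.of_equiv _ e.symm.toEquiv

theorem card_dual (hab : ∀ a b : P, a * b = b * a) : Nat.card (P →* ℂˣ) = Nat.card P := by
  letI : CommGroup P := { (inferInstance : Group P) with mul_comm := hab }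
  haveI : NeZero (Monoid.exponent P) := ⟨Monoid.exponent_ne_zero_of_finite⟩
  obtain ⟨e⟩ := CommGroup.monoidHom_mulEquiv_of_hasEnoughRootsOfUnity P ℂ
  exact Nat.card_congr e.toEquiv

theorem exists_dual_ne (hab : ∀ a b : P, a * b = b * a) {y : P} (hy : y ≠ 1) :
    ∃ ψ : P →* ℂˣ, ψ y ≠ 1 := by
  letI : CommGroup P := { (inferInstance : Group P) with mul_comm := hab }
  haveI : NeZero (Monoid.exponent P) := ⟨Monoid.exponent_ne_zero_of_finite⟩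
  exact CommGroup.exists_apply_ne_one_of_hasEnoughRootsOfUnity P ℂ hy

theorem psi_pow_card (ψ : P →* ℂˣ) (y : P) : (ψ y) ^ Nat.card P = 1 := by
  rw [← map_pow, pow_card_eq_one', map_one]

theorem norm_psi (ψ : P →* ℂˣ) (y : P) : ‖((ψ y : ℂˣ) : ℂ)‖ = 1 := by
  have h : ((ψ y : ℂˣ) : ℂ) ^ Nat.card P = 1 := by
    have := congrArg (Units.val) (psi_pow_card ψ y)
    simpa using this
  exact Complex.norm_eq_one_of_pow_eq_one h Nat.card_pos.ne'

theorem conj_psi (ψ : P →* ℂˣ) (y : P) : conj ((ψ y : ℂˣ) : ℂ) = ((ψ y⁻¹ : ℂˣ) : ℂ) := by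
  rw [map_inv, Units.val_inv_eq_inv_val, Complex.inv_def, Complex.normSq_eq_norm_sq, norm_psi]
  simp

theorem psi_mul_conj (ψ : P →* ℂˣ) (y : P) : ((ψ y : ℂˣ) : ℂ) * conj ((ψ y : ℂˣ) : ℂ) = 1 := by
  rw [conj_psi, ← Units.val_mul, ← map_mul, mul_inv_cancel, map_one, Units.val_one]

variable [Fintype P]

theorem sum_psi_of_ne {ψ : P →* ℂˣ} (h : ψ ≠ 1) : (∑ y : P, ((ψ y : ℂˣ) : ℂ)) = 0 := by
  classical
  obtain ⟨y₀, hy₀⟩ : ∃ y₀, ψ y₀ ≠ 1 := by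
    by_contra hcon
    push Not at hcon
    exact h (MonoidHom.ext hcon)
  have h1 : ((ψ y₀ : ℂˣ) : ℂ) * (∑ y : P, ((ψ y : ℂˣ) : ℂ)) = ∑ y : P, ((ψ y : ℂˣ) : ℂ) := by
    rw [Finset.mul_sum]
    refine Fintype.sum_equiv (Equiv.mulLeft y₀) _ _ fun y => ?_
    simp
  have h2 : ((ψ y₀ : ℂˣ) : ℂ) ≠ 1 := by
    intro h3
    exact hy₀ (Units.ext h3)
  have h3 : (((ψ y₀ : ℂˣ) : ℂ) - 1) * (∑ y : P, ((ψ y : ℂˣ) : ℂ)) = 0 := by
    rw [sub_mul, h1, one_mul, sub_self]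
  exact (mul_eq_zero.1 h3).resolve_left (sub_ne_zero.2 h2)

/-- Orthogonality of two homomorphisms. -/
theorem sum_psi_conj_of_ne {ψ φ : P →* ℂˣ} (hab : ∀ a b : P, a * b = b * a) (h : ψ ≠ φ) :
    (∑ y : P, ((ψ y : ℂˣ) : ℂ) * conj ((φ y : ℂˣ) : ℂ)) = 0 := by
  classical
  letI : CommGroup P := { (inferInstance : Group P) with mul_comm := hab }
  let θ : P →* ℂˣ := ψ * φ⁻¹
  have hθ : θ ≠ 1 := by
    intro h1
    apply h
    have h2 : ψ * φ⁻¹ = 1 := h1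
    exact mul_inv_eq_one.1 h2
  have h3 := sum_psi_of_ne hθ
  rw [← h3]
  refine Finset.sum_congr rfl fun y _ => ?_
  rw [conj_psi]
  simp [θ, MonoidHom.mul_apply, MonoidHom.inv_apply]

theorem sum_psi_conj_self (ψ : P →* ℂˣ) :
    (∑ y : P, ((ψ y : ℂˣ) : ℂ) * conj ((ψ y : ℂˣ) : ℂ)) = (Nat.card P : ℂ) := by
  rw [Finset.sum_congr rfl fun y _ => psi_mul_conj ψ y]
  simp

variable [Fintype (P →* ℂˣ)]

theorem sum_dual_of_ne (hab : ∀ a b : P, a * b = b * a) {y : P} (h : y ≠ 1) :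
    (∑ ψ : P →* ℂˣ, ((ψ y : ℂˣ) : ℂ)) = 0 := by
  classical
  letI : CommGroup P := { (inferInstance : Group P) with mul_comm := hab }
  obtain ⟨ψ₀, hψ₀⟩ := exists_dual_ne hab h
  have h1 : ((ψ₀ y : ℂˣ) : ℂ) * (∑ ψ : P →* ℂˣ, ((ψ y : ℂˣ) : ℂ)) = ∑ ψ : P →* ℂˣ, ((ψ y : ℂˣ) : ℂ) := by
    rw [Finset.mul_sum]
    refine Fintype.sum_equiv (Equiv.mulLeft ψ₀) _ _ fun ψ => ?_
    simp
  have h2 : ((ψ₀ y : ℂˣ) : ℂ) ≠ 1 := by
    intro h3
    exact hψ₀ (Units.ext h3)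
  have h3 : (((ψ₀ y : ℂˣ) : ℂ) - 1) * (∑ ψ : P →* ℂˣ, ((ψ y : ℂˣ) : ℂ)) = 0 := by
    rw [sub_mul, h1, one_mul, sub_self]
  exact (mul_eq_zero.1 h3).resolve_left (sub_ne_zero.2 h2)

theorem card_dual_cast (hab : ∀ a b : P, a * b = b * a) :
    ((Fintype.card (P →* ℂˣ) : ℕ) : ℂ) = (Nat.card P : ℂ) := by
  rw [← Nat.card_eq_fintype_card, card_dual hab]

/-- `Σ_ψ ψ(a) conj ψ(b) = 0` for `a ≠ b`. -/
theorem sum_dual_conj_of_ne (hab : ∀ a b : P, a * b = b * a) {a b : P} (h : a ≠ b) :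
    (∑ ψ : P →* ℂˣ, ((ψ a : ℂˣ) : ℂ) * conj ((ψ b : ℂˣ) : ℂ)) = 0 := by
  have h1 : a * b⁻¹ ≠ 1 := fun h2 => h (mul_inv_eq_one.1 h2)
  rw [← sum_dual_of_ne hab h1]
  refine Finset.sum_congr rfl fun ψ _ => ?_
  rw [conj_psi, ← Units.val_mul, ← map_mul]

theorem sum_dual_conj_self (hab : ∀ a b : P, a * b = b * a) (a : P) :
    (∑ ψ : P →* ℂˣ, ((ψ a : ℂˣ) : ℂ) * conj ((ψ a : ℂˣ) : ℂ)) = (Nat.card P : ℂ) := by
  rw [Finset.sum_congr rfl fun ψ _ => psi_mul_conj ψ a]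
  simp only [Finset.sum_const, Finset.card_univ, nsmul_eq_mul, mul_one]
  exact card_dual_cast hab

end Dual

section Act

variable {P : Type*} [Group P] [Fintype P]

/-- The right action of an automorphism on a homomorphism to `ℂˣ`. -/
def rc (ψ : P →* ℂˣ) (τ : MulAut P) : P →* ℂˣ := ψ.comp (τ : P ≃* P).toMonoidHom

@[simp] theorem rc_apply (ψ : P →* ℂˣ) (τ : MulAut P) (y : P) : rc ψ τ y = ψ (τ y) := rfl

theorem rc_mul (ψ : P →* ℂˣ) (τ ρ : MulAut P) : rc ψ (τ * ρ) = rc (rc ψ τ) ρ := by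
  ext y
  simp [rc]

@[simp] theorem rc_one_right (ψ : P →* ℂˣ) : rc ψ (1 : MulAut P) = ψ := by
  ext y
  simp [rc]

@[simp] theorem rc_one_left (τ : MulAut P) : rc (1 : P →* ℂˣ) τ = 1 := by
  ext y
  simp [rc]

theorem rc_eq_one_iff {ψ : P →* ℂˣ} {τ : MulAut P} : rc ψ τ = 1 ↔ ψ = 1 := by
  constructor
  · intro h
    ext y
    have := congrArg (fun f : P →* ℂˣ => f (τ⁻¹ y)) h
    simpa [rc] using this
  · rintro rfl
    exact rc_one_left τ

variable (W : Subgroup (MulAut P))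

/-- `W` acts freely on the non-identity elements. -/
def FreeOn : Prop := ∀ τ ∈ W, τ ≠ 1 → ∀ y : P, y ≠ 1 → τ y ≠ y

variable {W}

/-- A fixed-point-free automorphism fixes no nontrivial homomorphism to `ℂˣ`. -/
theorem rc_ne_self (hab : ∀ a b : P, a * b = b * a) {τ : MulAut P} (hτ : ∀ y : P, y ≠ 1 → τ y ≠ y)
    {ψ : P →* ℂˣ} (hψ : ψ ≠ 1) : rc ψ τ ≠ ψ := by
  intro h
  apply hψ
  have hinj : Function.Injective (fun x : P => τ x * x⁻¹) := by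
    intro a b hab'
    simp only at hab'
    by_contra hne
    have h2 : a * b⁻¹ ≠ 1 := fun h3 => hne (mul_inv_eq_one.1 h3)
    apply hτ _ h2
    rw [map_mul, map_inv]
    have h4 : τ a = τ b * (b⁻¹ * a) := by
      have h5 : τ a = τ b * b⁻¹ * a := by
        rw [← hab']
        group
      rw [h5]
      group
    rw [h4]
    have h6 : b⁻¹ * a = a * b⁻¹ := hab _ _
    rw [h6]
    have h7 : τ b * (a * b⁻¹) * (τ b)⁻¹ = a * b⁻¹ := by
      rw [hab (τ b) (a * b⁻¹)]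
      group
    exact h7
  have hsurj := Finite.surjective_of_injective hinj
  ext y
  obtain ⟨x, rfl⟩ := hsurj y
  have h1 : ψ (τ x) = ψ x := by
    have := congrArg (fun f : P →* ℂˣ => f x) h
    simpa [rc] using this
  simp [map_mul, h1]

variable (W) [Fintype W]

/-- The orbit sum of `ψ` (as a function on `P`). -/
noncomputable def hat (ψ : P →* ℂˣ) (y : P) : ℂ := ∑ τ : W, ((ψ ((τ : MulAut P) y) : ℂˣ) : ℂ)

/-- The function `α_ψ = ψ̂ - 3`. -/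
noncomputable def alp (ψ : P →* ℂˣ) (y : P) : ℂ := hat W ψ y - 3

variable {W}

/-- Reindexing a sum over `W` by right multiplication. -/
theorem sum_W_mul_right {β : Type*} [AddCommMonoid β] (ρ : W) (f : MulAut P → β) :
    (∑ τ : W, f ((τ : MulAut P) * (ρ : MulAut P))) = ∑ τ : W, f (τ : MulAut P) :=
  Fintype.sum_equiv (Equiv.mulRight ρ) _ _ fun τ => rfl

theorem hat_act (ψ : P →* ℂˣ) (ρ : W) (y : P) : hat W ψ ((ρ : MulAut P) y) = hat W ψ y := by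
  unfold hat
  exact sum_W_mul_right ρ (fun τ => ((ψ (τ y) : ℂˣ) : ℂ))

theorem alp_act (ψ : P →* ℂˣ) (ρ : W) (y : P) : alp W ψ ((ρ : MulAut P) y) = alp W ψ y := by
  unfold alp
  rw [hat_act]

theorem hat_rc (ψ : P →* ℂˣ) (ρ : W) : hat W (rc ψ (ρ : MulAut P)) = hat W ψ := by
  funext y
  unfold hat
  refine Fintype.sum_equiv (Equiv.mulLeft ρ) _ _ fun τ => ?_
  simp [rc]

theorem hat_one (hW3 : Nat.card W = 3) (ψ : P →* ℂˣ) : hat W ψ 1 = 3 := by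
  unfold hat
  simp only [map_one, Units.val_one, Finset.sum_const, Finset.card_univ, nsmul_eq_mul, mul_one]
  rw [← Nat.card_eq_fintype_card, hW3]
  norm_num

theorem alp_one (hW3 : Nat.card W = 3) (ψ : P →* ℂˣ) : alp W ψ 1 = 0 := by
  unfold alp
  rw [hat_one hW3, sub_self]

/-- Reindexing a sum over `P` by an automorphism. -/
theorem sum_aut {β : Type*} [AddCommMonoid β] (τ : MulAut P) (f : P → β) :
    (∑ y : P, f (τ y)) = ∑ y : P, f y :=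
  Fintype.sum_equiv (τ : P ≃* P).toEquiv _ _ fun y => rfl

theorem sum_hat {ψ : P →* ℂˣ} (hψ : ψ ≠ 1) : (∑ y : P, hat W ψ y) = 0 := by
  unfold hat
  rw [Finset.sum_comm]
  refine Finset.sum_eq_zero fun τ _ => ?_
  rw [sum_aut (τ : MulAut P) (fun y => ((ψ y : ℂˣ) : ℂ))]
  exact sum_psi_of_ne hψ

theorem sum_alp (hW3 : Nat.card W = 3) {ψ : P →* ℂˣ} (hψ : ψ ≠ 1) :
    (∑ y : P, alp W ψ y) = -(3 * (Nat.card P : ℂ)) := by
  unfold alp
  rw [Finset.sum_sub_distrib, sum_hat hψ]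
  simp only [Finset.sum_const, Finset.card_univ, nsmul_eq_mul, Nat.card_eq_fintype_card]
  ring

/-- Sum with a `W`-invariant weight. -/
theorem sum_hat_mul (hW3 : Nat.card W = 3) (ψ : P →* ℂˣ) {n : P → ℂ}
    (hn : ∀ (ρ : W) (y : P), n ((ρ : MulAut P) y) = n y) :
    (∑ y : P, hat W ψ y * n y) = 3 * ∑ y : P, ((ψ y : ℂˣ) : ℂ) * n y := by
  unfold hat
  simp only [Finset.sum_mul]
  rw [Finset.sum_comm]
  have h1 : ∀ τ : W, (∑ y : P, ((ψ ((τ : MulAut P) y) : ℂˣ) : ℂ) * n y) = ∑ y : P, ((ψ y : ℂˣ) : ℂ) * n y := by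
    intro τ
    rw [← sum_aut (τ : MulAut P) (fun y => ((ψ y : ℂˣ) : ℂ) * n y)]
    refine Finset.sum_congr rfl fun y _ => ?_
    rw [hn]
  rw [Finset.sum_congr rfl fun τ _ => h1 τ]
  simp only [Finset.sum_const, Finset.card_univ, nsmul_eq_mul]
  rw [← Nat.card_eq_fintype_card, hW3]
  norm_num

/-- The relation "in the same `W`-orbit". -/
def orbR (W : Subgroup (MulAut P)) (ψ φ : P →* ℂˣ) : Prop := ∃ τ ∈ W, φ = rc ψ τ

theorem orbR_refl (ψ : P →* ℂˣ) : orbR W ψ ψ := ⟨1, W.one_mem, (rc_one_right ψ).symm⟩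

theorem orbR_symm {ψ φ : P →* ℂˣ} (h : orbR W ψ φ) : orbR W φ ψ := by
  obtain ⟨τ, hτ, rfl⟩ := h
  refine ⟨τ⁻¹, W.inv_mem hτ, ?_⟩
  rw [← rc_mul, mul_inv_cancel, rc_one_right]

theorem orbR_trans {ψ φ θ : P →* ℂˣ} (h : orbR W ψ φ) (h' : orbR W φ θ) : orbR W ψ θ := by
  obtain ⟨τ, hτ, rfl⟩ := h
  obtain ⟨ρ, hρ, rfl⟩ := h'
  exact ⟨τ * ρ, W.mul_mem hτ hρ, (rc_mul ψ τ ρ).symm⟩

theorem hat_of_orbR {ψ φ : P →* ℂˣ} (h : orbR W ψ φ) : hat W φ = hat W ψ := by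
  obtain ⟨τ, hτ, rfl⟩ := h
  exact hat_rc ψ ⟨τ, hτ⟩

theorem ne_one_of_orbR {ψ φ : P →* ℂˣ} (h : orbR W ψ φ) (hψ : ψ ≠ 1) : φ ≠ 1 := by
  obtain ⟨τ, hτ, rfl⟩ := h
  exact fun h1 => hψ (rc_eq_one_iff.1 h1)

/-- Freeness on the dual. -/
theorem rc_inj_W (hab : ∀ a b : P, a * b = b * a) (hfree : FreeOn W) {ψ : P →* ℂˣ} (hψ : ψ ≠ 1) {τ ρ : MulAut P}
    (hτ : τ ∈ W) (hρ : ρ ∈ W) (h : rc ψ τ = rc ψ ρ) : τ = ρ := by
  by_contra hne
  have h1 : τ * ρ⁻¹ ≠ 1 := fun h2 => hne (mul_inv_eq_one.1 h2)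
  have h2 := rc_ne_self hab (hfree _ (W.mul_mem hτ (W.inv_mem hρ)) h1) hψ
  apply h2
  rw [rc_mul, h, ← rc_mul, mul_inv_cancel, rc_one_right]

/-- Main computation: the inner product of two orbit sums. -/
theorem sum_hat_conj_hat (hab : ∀ a b : P, a * b = b * a) (hW3 : Nat.card W = 3) (hfree : FreeOn W)
    {ψ : P →* ℂˣ} (hψ : ψ ≠ 1) (φ : P →* ℂˣ) :
    (∑ y : P, hat W ψ y * conj (hat W φ y)) =
      (open Classical in if orbR W ψ φ then 3 * (Nat.card P : ℂ) else 0) := by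
  classical
  have hinv : ∀ (ρ : W) (y : P), conj (hat W φ ((ρ : MulAut P) y)) = conj (hat W φ y) := fun ρ y => by rw [hat_act]
  rw [sum_hat_mul hW3 ψ hinv]
  have h0 : (∑ y : P, ((ψ y : ℂˣ) : ℂ) * conj (hat W φ y)) =
      ∑ τ : W, ∑ y : P, ((ψ y : ℂˣ) : ℂ) * conj ((φ ((τ : MulAut P) y) : ℂˣ) : ℂ) := by
    unfold hat
    simp only [map_sum, Finset.mul_sum]
    rw [Finset.sum_comm]
  rw [h0]
  have h1 : ∀ τ : W, (∑ y : P, ((ψ y : ℂˣ) : ℂ) * conj ((φ ((τ : MulAut P) y) : ℂˣ) : ℂ)) =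
      if ψ = rc φ τ then (Nat.card P : ℂ) else 0 := by
    intro τ
    split_ifs with h
    · rw [h]
      exact sum_psi_conj_self (rc φ (τ : MulAut P))
    · exact sum_psi_conj_of_ne (φ := rc φ (τ : MulAut P)) hab h
  rw [Finset.sum_congr rfl fun τ _ => h1 τ]
  split_ifs with h
  · obtain ⟨τ₀, hτ₀, rfl⟩ := h
    have h2 : ∀ τ : W, ψ = rc (rc ψ τ₀) (τ : MulAut P) ↔ τ = ⟨τ₀⁻¹, W.inv_mem hτ₀⟩ := by
      intro τ
      constructor
      · intro h3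
        apply Subtype.ext
        rw [← rc_mul] at h3
        have h4 := rc_inj_W hab hfree hψ (W.mul_mem hτ₀ τ.2) W.one_mem (by rw [← h3, rc_one_right])
        exact eq_inv_of_mul_eq_one_right h4
      · rintro rfl
        show ψ = rc (rc ψ τ₀) τ₀⁻¹
        rw [← rc_mul, mul_inv_cancel, rc_one_right]
    simp only [h2, Finset.sum_ite_eq', Finset.mem_univ, if_true]
  · have h2 : ∀ τ : W, ¬ ψ = rc φ (τ : MulAut P) := by
      intro τ h3
      apply h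
      exact orbR_symm ⟨τ, τ.2, h3⟩
    simp [h2]

/-- The isometry computation for `α`. -/
theorem sum_alp_conj_alp (hab : ∀ a b : P, a * b = b * a) (hW3 : Nat.card W = 3) (hfree : FreeOn W)
    {ψ φ : P →* ℂˣ} (hψ : ψ ≠ 1) (hφ : φ ≠ 1) :
    (∑ y : P, alp W ψ y * conj (alp W φ y)) =
      (open Classical in (if orbR W ψ φ then 3 * (Nat.card P : ℂ) else 0)) + 9 * (Nat.card P : ℂ) := by
  classical
  have h1 : ∀ y : P, alp W ψ y * conj (alp W φ y) =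
      hat W ψ y * conj (hat W φ y) - 3 * hat W ψ y - 3 * conj (hat W φ y) + 9 := by
    intro y
    unfold alp
    simp only [map_sub]
    have : conj (3 : ℂ) = 3 := map_ofNat _ 3
    rw [this]
    ring
  simp only [h1]
  rw [Finset.sum_add_distrib, Finset.sum_sub_distrib, Finset.sum_sub_distrib, sum_hat_conj_hat hab hW3 hfree hψ,
    ← Finset.mul_sum, ← Finset.mul_sum, sum_hat hψ, ← map_sum, sum_hat hφ]
  simp only [Finset.sum_const, Finset.card_univ, nsmul_eq_mul, Nat.card_eq_fintype_card, map_zero]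
  ring

section Inversion

variable [Fintype (P →* ℂˣ)]

/-- Fourier inversion. -/
theorem sum_coeff_conj (hab : ∀ a b : P, a * b = b * a) (hW3 : Nat.card W = 3) {n : P → ℂ}
    (hn : ∀ (ρ : W) (y : P), n ((ρ : MulAut P) y) = n y) (c : (P →* ℂˣ) → ℂ)
    (hc : ∀ ψ : P →* ℂˣ, ψ ≠ 1 → c ψ * (3 * (Nat.card P : ℂ)) = ∑ y : P, alp W ψ y * n y)
    {y₀ : P} (hy₀ : y₀ ≠ 1) :
    (∑ ψ : P →* ℂˣ, (open Classical in if ψ = 1 then 0 else c ψ * conj ((ψ y₀ : ℂˣ) : ℂ))) = n y₀ := by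
  classical
  have hP0 : (Nat.card P : ℂ) ≠ 0 := by exact_mod_cast Nat.card_pos.ne'
  have hc' : ∀ ψ : P →* ℂˣ, (open Classical in if ψ = 1 then 0 else c ψ * conj ((ψ y₀ : ℂˣ) : ℂ)) * (Nat.card P : ℂ) =
      (∑ y : P, ((ψ y : ℂˣ) : ℂ) * n y) * conj ((ψ y₀ : ℂˣ) : ℂ) - (∑ y : P, n y) * conj ((ψ y₀ : ℂˣ) : ℂ) := by
    intro ψ
    split_ifs with h
    · subst h
      simp
    · have h1 := hc ψ h
      have h2 : (∑ y : P, alp W ψ y * n y) = 3 * (∑ y : P, ((ψ y : ℂˣ) : ℂ) * n y) - 3 * ∑ y : P, n y := by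
        unfold alp
        simp only [sub_mul]
        rw [Finset.sum_sub_distrib, sum_hat_mul hW3 ψ hn, ← Finset.mul_sum]
      rw [h2] at h1
      have h3 : c ψ * (Nat.card P : ℂ) = (∑ y : P, ((ψ y : ℂˣ) : ℂ) * n y) - ∑ y : P, n y := by
        have h4 : (3 : ℂ) ≠ 0 := by norm_num
        apply mul_left_cancel₀ h4
        linear_combination h1
      linear_combination (conj ((ψ y₀ : ℂˣ) : ℂ)) * h3
  apply mul_right_cancel₀ hP0
  rw [Finset.sum_mul, Finset.sum_congr rfl fun ψ _ => hc' ψ, Finset.sum_sub_distrib]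
  have h5 : (∑ ψ : P →* ℂˣ, (∑ y : P, n y) * conj ((ψ y₀ : ℂˣ) : ℂ)) = 0 := by
    rw [← Finset.mul_sum, ← map_sum, sum_dual_of_ne hab hy₀, map_zero, mul_zero]
  rw [h5, sub_zero]
  simp only [Finset.sum_mul]
  rw [Finset.sum_comm]
  have h6 : ∀ y : P, (∑ ψ : P →* ℂˣ, ((ψ y : ℂˣ) : ℂ) * n y * conj ((ψ y₀ : ℂˣ) : ℂ)) =
      if y = y₀ then n y₀ * (Nat.card P : ℂ) else 0 := by
    intro y
    split_ifs with h
    · subst h
      rw [← sum_dual_conj_self hab y, Finset.mul_sum]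
      refine Finset.sum_congr rfl fun ψ _ => ?_
      ring
    · have h7 := sum_dual_conj_of_ne (P := P) hab h
      have : (∑ ψ : P →* ℂˣ, ((ψ y : ℂˣ) : ℂ) * n y * conj ((ψ y₀ : ℂˣ) : ℂ)) =
          n y * ∑ ψ : P →* ℂˣ, ((ψ y : ℂˣ) : ℂ) * conj ((ψ y₀ : ℂˣ) : ℂ) := by
        rw [Finset.mul_sum]
        refine Finset.sum_congr rfl fun ψ _ => ?_
        ring
      rw [this, h7, mul_zero]
  rw [Finset.sum_congr rfl fun y _ => h6 y]
  simp

/-- Sum over the nonprincipal `ψ`. -/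
theorem sum_dual_ne_one (hab : ∀ a b : P, a * b = b * a) {y : P} (hy : y ≠ 1) :
    (∑ ψ : P →* ℂˣ, (open Classical in if ψ = 1 then 0 else ((ψ y : ℂˣ) : ℂ))) = -1 := by
  classical
  have h1 := sum_dual_of_ne hab hy
  rw [← Finset.add_sum_erase _ _ (Finset.mem_univ (1 : P →* ℂˣ))] at h1
  rw [← Finset.add_sum_erase _ _ (Finset.mem_univ (1 : P →* ℂˣ))]
  have h2 : (∑ ψ ∈ Finset.univ.erase (1 : P →* ℂˣ), (if ψ = 1 then (0 : ℂ) else ((ψ y : ℂˣ) : ℂ))) =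
      ∑ ψ ∈ Finset.univ.erase (1 : P →* ℂˣ), ((ψ y : ℂˣ) : ℂ) :=
    Finset.sum_congr rfl fun ψ hψ => by rw [if_neg (Finset.ne_of_mem_erase hψ)]
  rw [h2]
  simp only [MonoidHom.one_apply, Units.val_one] at h1
  simp only [if_true]
  linear_combination h1

/-- The orthogonality used in the even case. -/
theorem sum_dual_ne_one_conj (hab : ∀ a b : P, a * b = b * a) {a b : P} (h : a ≠ b) :
    (∑ ψ : P →* ℂˣ, (open Classical in if ψ = 1 then 0 else ((ψ a : ℂˣ) : ℂ) * conj ((ψ b : ℂˣ) : ℂ))) = -1 := by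
  classical
  have h1 := sum_dual_conj_of_ne (P := P) hab h
  rw [← Finset.add_sum_erase _ _ (Finset.mem_univ (1 : P →* ℂˣ))] at h1
  rw [← Finset.add_sum_erase _ _ (Finset.mem_univ (1 : P →* ℂˣ))]
  have h2 : (∑ ψ ∈ Finset.univ.erase (1 : P →* ℂˣ), (if ψ = 1 then (0 : ℂ) else ((ψ a : ℂˣ) : ℂ) * conj ((ψ b : ℂˣ) : ℂ))) =
      ∑ ψ ∈ Finset.univ.erase (1 : P →* ℂˣ), ((ψ a : ℂˣ) : ℂ) * conj ((ψ b : ℂˣ) : ℂ) :=
    Finset.sum_congr rfl fun ψ hψ => by rw [if_neg (Finset.ne_of_mem_erase hψ)]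
  rw [h2]
  simp only [MonoidHom.one_apply, Units.val_one, map_one, mul_one] at h1
  simp only [if_true]
  linear_combination h1

end Inversion

end Act

end Cfsg.Agent.Lib.Exc3
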